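import Cfsg.Agent.H996.Eight.Enc

/-!
# The table of the spherical machine: `³D₄`, node `0` (helper996, for S4612; made by a program)

6 states, 4 classes.
-/

set_option autoImplicit false
set_option maxRecDepth 20000

namespace Cfsg.Agent.H996.PQ.TabTwDa

open Cfsg.Agent.H967.Sph Cfsg.Agent.H64.Dl.Sph Cfsg.Agent.H996.Eight.Cert Cfsg.Agent.H996.Eight.En

/-- the Cartan matrix -/
def A (i k : Fin 2) : ℤ := (([[2, -1], [-3, 2]] : List (List ℤ)).getD i []).getD k 0

/-- the encoded table -/
def enc : Enc 2 6 4 where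
  j := 0
  V := 148956285409161
  S := 6495445395438919080938157243367425
  C := 102827040
  P := 4506900310786048
  Q := 65792
  CP := 1151800001674870783
  CQ := 65792
  R := 5371855872
  W := 9930048536832

/-- the table -/
def tab : Tab A 0 6 4 :=
  enc.tab A (by decide +kernel) (by decide +kernel) (by decide +kernel) (by decide +kernel) (by decide +kernel)
    (by decide +kernel) (by decide +kernel)

/-- the exponents of the parameters -/
def e (i : Fin 2) : ℕ := ([1, 3] : List ℕ).getD i 0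

def matL : List (List (List ℤ)) := [[[], [0, 1], [], []], [[0, 1], [0, -1, 1], [0, 0, 0, 0, 0, 1], []], [[], [0, 0, 0, 0, 0, 1], [0, 0, 0, 0, 0, -1, 1], [0, 0, 0, 0, 0, 0, 0, 0, 0, 1]], [[], [], [0, 0, 0, 0, 0, 0, 0, 0, 0, 1], [0, 0, 0, 0, 0, 0, 0, 0, 0, -1, 1]]]

def bbL : List (List (List ℤ)) := [[[], [0, 1, 0, 0, 1], [], []], [[1], [-1, 1], [0, 0, 0, 0, 1], []], [[], [1], [-1, 1], [0, 0, 0, 0, 1]], [[], [], [1, 0, 0, 1], [-1, 1, 0, -1, 1]]]

def kL : List (List ℤ) := [[1], [0, 1, 0, 0, 1], [0, 0, 0, 0, 0, 1, 0, 0, 1], [0, 0, 0, 0, 0, 0, 0, 0, 0, 1]]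

/-- the data -/
def data : Data A 0 6 4 where
  t := tab
  e := e
  wl := enc.wl
  mat c c' := (matL.getD c []).getD c' []
  kk c := kL.getD c []
  ff := [1, 0, 0, 1]
  bb c c' := (bbL.getD c []).getD c' []
  chkM := by decide +kernel
  chkK := by decide +kernel
  chkF := by decide +kernel
  chkP := by decide +kernel
  chkB := by decide +kernel
  wo := by decide +kernel
  ws := by decide +kernel

end Cfsg.Agent.H996.PQ.TabTwDa
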